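import Cfsg.Agent.Schreier.SylMTwentyTwo
import Cfsg.Agent.H720.HT.NVChain

/-!
# S4933: the Sylow 2-subgroup of `M22` has derived length 3 (helper31)

`dd_m22`, `nv_m22 : NV 2 Spor.M22` and the rows at `p = 2` of `M22`, `M23`, `HS`, `McL`, `Co3`, `Co2`.
-/

set_option autoImplicit false

namespace Cfsg.Agent.H31.HT.M22

open Cfsg Cfsg.Agent.H720.HT Cfsg.Agent.Schreier.SylMTwentyTwo Cfsg.Agent.Golay.Orbit
open Cfsg.Agent.H483.HT (NV)
open Cfsg.Agent.H316.HT (Row)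
open scoped commutatorElement

universe u

theorem Rp.inv {g : Equiv.Perm GolayPt} {x y : List ℕ} (hx : Rp g x) (hy : y.length = 24) (h : mulL y x = idL) :
    Rp g⁻¹ y := by
  refine ⟨hy, fun p => ?_⟩
  have h1 := hx.eq (g⁻¹ p)
  rw [show g (g⁻¹ p) = p from g.apply_symm_apply p] at h1
  have hlt : idx (g⁻¹ p) < x.length := by rw [hx.len]; exact idx_lt _
  have h2 : (mulL y x).getD (idx (g⁻¹ p)) 24 = idx (g⁻¹ p) := by
    have h3 := rp_one.eq (g⁻¹ p)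
    rw [h]
    exact h3
  rw [mulL, List.getD_eq_getElem _ _ (by rw [List.length_map]; exact hlt), List.getElem_map] at h2
  rw [List.getD_eq_getElem _ _ hlt] at h1
  rw [← h1]
  exact h2

/-- the inverse tables -/
def inv0 : List ℕ := [0, 2, 1, 17, 12, 14, 7, 19, 4, 9, 20, 13, 22, 18, 3, 15, 11, 5, 16, 21, 10, 6, 8, 23]
def inv1 : List ℕ := [0, 2, 1, 5, 21, 3, 12, 8, 9, 13, 22, 15, 10, 7, 14, 4, 19, 17, 20, 18, 16, 11, 6, 23]
def inv2 : List ℕ := [0, 2, 1, 17, 19, 14, 8, 12, 15, 13, 22, 9, 20, 6, 3, 4, 21, 5, 10, 11, 16, 18, 7, 23]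

theorem rp_inv0 : Rp (gen 0)⁻¹ inv0 := Rp.inv (rp_gen 0) rfl (by decide +kernel)
theorem rp_inv1 : Rp (gen 1)⁻¹ inv1 := Rp.inv (rp_gen 1) rfl (by decide +kernel)
theorem rp_inv2 : Rp (gen 2)⁻¹ inv2 := Rp.inv (rp_gen 2) rfl (by decide +kernel)

/-- the table of `⁅gen 0, gen 1⁆` -/
def u1 : List ℕ := mulL (mulL (mulL (gl.getD 0 []) (gl.getD 1 [])) inv0) inv1
/-- the table of `⁅gen 0, gen 2⁆` -/
def u2 : List ℕ := mulL (mulL (mulL (gl.getD 0 []) (gl.getD 2 [])) inv0) inv2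

theorem rp_u1 : Rp ⁅gen 0, gen 1⁆ u1 := (((rp_gen 0).mul (rp_gen 1)).mul rp_inv0).mul rp_inv1
theorem rp_u2 : Rp ⁅gen 0, gen 2⁆ u2 := (((rp_gen 0).mul (rp_gen 2)).mul rp_inv0).mul rp_inv2

theorem ne_one : ⁅⁅gen 0, gen 1⁆, ⁅gen 0, gen 2⁆⁆ ≠ 1 := by
  intro h
  have h1 : ⁅gen 0, gen 1⁆ * ⁅gen 0, gen 2⁆ = ⁅gen 0, gen 2⁆ * ⁅gen 0, gen 1⁆ :=
    commutatorElement_eq_one_iff_mul_comm.1 h
  have h2 := rp_u1.mul rp_u2
  rw [h1] at h2
  have h3 := (rp_u2.mul rp_u1).unique h2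
  exact absurd h3 (by decide +kernel)

theorem pGroup_T : IsPGroup 2 T := IsPGroup.of_card (n := 7) (by rw [card_T]; norm_num)

theorem dd_m22 : DD 2 ↥Spor.M22 := by
  have hQ : IsPGroup 2 (T.comap Spor.M22.subtype) := pGroup_T.comap_of_injective _ (Subgroup.subtype_injective _)
  have hT : ∀ k, gen k ∈ T := fun k => Subgroup.subset_closure ⟨k, rfl⟩
  refine DD.of_mem _ hQ (a := ⟨gen 0, gen_mem 0⟩) (b := ⟨gen 1, gen_mem 1⟩) (c := ⟨gen 0, gen_mem 0⟩)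
    (d := ⟨gen 2, gen_mem 2⟩) (hT 0) (hT 1) (hT 0) (hT 2) ?_
  intro h
  exact ne_one (congrArg Subtype.val h)

theorem nv_m22 : NV 2 ↥Spor.M22 := dd_m22.nv

theorem row2_m22 {S : Type u} [Group S] (h : Spor.IsoM22 S) : Row 2 S := by
  obtain ⟨e⟩ := h
  exact row2_of_nv (nv_m22.congr e.symm)

theorem row2_m23 {S : Type u} [Group S] (h : Spor.IsoM23 S) : Row 2 S := row2_of_nv (nv_m23_of nv_m22 h)

theorem row2_hs {S : Type u} [Group S] (h : Spor.IsoHS S) : Row 2 S := row2_of_nv (nv_hs_of nv_m22 h)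

theorem row2_mcl {S : Type u} [Group S] (h : Spor.IsoMcL S) : Row 2 S := row2_of_nv (nv_mcl_of nv_m22 h)

theorem row2_co3 {S : Type u} [Group S] (h : Spor.IsoCo3 S) : Row 2 S := row2_of_nv (nv_co3_of nv_m22 h)

theorem row2_co2 {S : Type u} [Group S] (h : Spor.IsoCo2 S) : Row 2 S := row2_of_nv (nv_co2_of nv_m22 h)

end Cfsg.Agent.H31.HT.M22
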